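import Mathlib
import Cfsg.Prelude.Def_DStar
import Cfsg.Agent.Lib.LAE.PIrr
import Cfsg.Agent.Lib.ZJ.Stable

/-!
The Glauberman–Solomon subgroup `D*(S)`.
-/

set_option autoImplicit false

namespace CfsgLib.LAE

open Subgroup Cfsg CfsgLib.PLocal
open scoped commutatorElement

variable {G : Type*} [Group G]

theorem class_two_sup_zpowers {A C : Subgroup G} {x : G} (hA : A ≤ centralizer (A : Set G))
    (h1 : A ≤ centralizer (C : Set G)) (h2 : x ∈ centralizer (C : Set G))
    (h : ∀ a ∈ A, ⁅x, a⁆ ∈ C) : ⁅⁅A ⊔ zpowers x, A ⊔ zpowers x⁆, A ⊔ zpowers x⁆ = ⊥ := by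
  have h3 : zpowers x ≤ centralizer (C : Set G) := zpowers_le.2 h2
  have n1 := h1.trans (centralizer_le_normalizer _)
  have n2 := h3.trans (centralizer_le_normalizer _)
  have h4 : ⁅zpowers x, A⁆ ≤ C := by
    rw [zpowers_eq_closure] at n2 ⊢
    exact commutator_closure_le n2 (by rintro _ rfl; exact h)
  have h5 : ⁅zpowers x, zpowers x⁆ = ⊥ :=
    commutator_eq_bot_iff_le_centralizer.2 (le_centralizer (zpowers x))
  rw [commutator_eq_bot_iff_le_centralizer]
  refine (commutator_sup_le n1 n2 (commutator_sup_le' n1 n2 ?_ ((commutator_comm _ _).trans_le h4))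
    (commutator_sup_le' n1 n2 h4 (h5.le.trans bot_le))).trans (le_centralizer_iff.1 (sup_le h1 h3))
  exact (commutator_eq_bot_iff_le_centralizer.2 hA).le.trans bot_le

/-- The family behind `D*(S)`, in ambient form. -/
structure DFam (S A : Subgroup G) : Prop where
  le : A ≤ S
  comm : A ≤ centralizer (A : Set G)
  cen : ∀ x ∈ S, ⁅⁅A ⊔ zpowers x, A ⊔ zpowers x⁆, A ⊔ zpowers x⁆ = ⊥ → x ∈ centralizer (A : Set G)

theorem dFam_top_iff {A : Subgroup G} : DFam ⊤ A ↔ A ∈ dStarFamily G :=
  ⟨fun h => ⟨le_centralizer_iff_isMulCommutative.1 h.comm, fun x hx => h.cen x trivial hx⟩,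
    fun h => ⟨le_top, le_centralizer_iff_isMulCommutative.2 h.1, fun x _ hx => h.2 x hx⟩⟩

theorem dFam_map_iff {G' : Type*} [Group G'] {f : G →* G'} (hf : Function.Injective f)
    {S A : Subgroup G} : DFam (S.map f) (A.map f) ↔ DFam S A := by
  have key : ∀ x, ⁅⁅A.map f ⊔ zpowers (f x), A.map f ⊔ zpowers (f x)⁆, A.map f ⊔ zpowers (f x)⁆ = ⊥ ↔
      ⁅⁅A ⊔ zpowers x, A ⊔ zpowers x⁆, A ⊔ zpowers x⁆ = ⊥ := fun x => by
    rw [← MonoidHom.map_zpowers, ← Subgroup.map_sup, ← map_commutator, ← map_commutator,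
      map_eq_bot_iff_of_injective _ hf]
  have key2 : ∀ x, f x ∈ centralizer ((A.map f : Subgroup G') : Set G') ↔
      x ∈ centralizer (A : Set G) := fun x => by
    rw [← zpowers_le, ← zpowers_le, ← MonoidHom.map_zpowers, map_le_centralizer_map_iff hf]
  refine ⟨fun h => ⟨(map_le_map_iff_of_injective hf).1 h.le, (map_le_centralizer_map_iff hf).1 h.comm,
    fun x hx h1 => (key2 x).1 (h.cen _ (mem_map_of_mem f hx) ((key x).2 h1))⟩,
    fun h => ⟨map_mono h.le, map_le_centralizer_map f h.comm, ?_⟩⟩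
  rintro _ ⟨x, hx, rfl⟩ h1
  exact (key2 x).2 (h.cen x hx ((key x).1 h1))

theorem DFam.conj {S A : Subgroup G} (h : DFam S A) (g : G) : DFam (conjS g S) (conjS g A) :=
  (dFam_map_iff (MulAut.conj g).injective).2 h

theorem dStarOf_le_iff {S K : Subgroup G} : dStarOf S ≤ K ↔ ∀ A, DFam S A → A ≤ K := by
  rw [dStarOf, map_le_iff_le_comap, dStar, sSup_le_iff]
  refine ⟨fun h A hA => ?_, fun h A hA => map_le_iff_le_comap.1 (h _ ?_)⟩
  · rw [← map_subgroupOf_eq_of_le hA.le, map_le_iff_le_comap]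
    refine h _ (dFam_top_iff.1 ((dFam_map_iff S.subtype_injective).1 ?_))
    rwa [map_top_subtype, map_subgroupOf_eq_of_le hA.le]
  · have := (dFam_map_iff S.subtype_injective).2 (dFam_top_iff.2 hA)
    rwa [map_top_subtype] at this

theorem DFam.le_dStarOf {S A : Subgroup G} (h : DFam S A) : A ≤ dStarOf S :=
  dStarOf_le_iff.1 le_rfl A h

theorem dStarOf_top : dStarOf (⊤ : Subgroup G) = dStar G :=
  le_antisymm (dStarOf_le_iff.2 fun _ h => le_sSup (dFam_top_iff.1 h))
    (sSup_le fun _ h => (dFam_top_iff.2 h).le_dStarOf)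

theorem dStarOf_le (S : Subgroup G) : dStarOf S ≤ S := map_subtype_le _

theorem normalizer_le_normalizer_dStarOf [Finite G] (S : Subgroup G) :
    normalizer (S : Set G) ≤ normalizer (dStarOf S : Set G) := fun g hg =>
  mem_normalizer_of_conjS_le (conjS_le_iff.2 (dStarOf_le_iff.2 fun A hA => conjS_le_iff.1
    (mem_normalizer_iff_conjS.1 hg ▸ hA.conj g).le_dStarOf))

variable [Finite G] {p : ℕ} [Fact p.Prime] {S A B : Subgroup G}

/-- A member of the family centralizes every abelian subgroup that it normalizes. -/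
theorem DFam.le_centralizer (hS : IsPGroup p S) (h : DFam S A) (hB : B ≤ S)
    (hc : B ≤ centralizer (B : Set G)) (hn : A ≤ normalizer (B : Set G)) :
    B ≤ centralizer (A : Set G) := by
  by_contra h1
  obtain ⟨n, h2⟩ := exists_iterCommutator_eq_bot_of_isPGroup (hS.to_le hB) (hS.to_le h.le) hn
  obtain ⟨x, hx, h3, h4⟩ := exists_mem_not_mem_commutator_mem hn h2 h1
  exact h3 (h.cen x (hB hx) (class_two_sup_zpowers (C := B ⊓ centralizer (A : Set G)) h.comm
    (le_centralizer_iff.1 inf_le_right) (centralizer_anti inf_le_left (hc hx)) fun a ha =>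
      ⟨commutator_le_left_of_le_normalizer hn (commutator_mem_commutator hx ha), h4 a ha⟩))

theorem dStarOf_le_centralizer (hS : IsPGroup p S) (hB : B ≤ S) (hc : B ≤ centralizer (B : Set G))
    (hn : S ≤ normalizer (B : Set G)) : dStarOf S ≤ centralizer (B : Set G) :=
  dStarOf_le_iff.2 fun _ h => le_centralizer_iff.1 (h.le_centralizer hS hB hc (h.le.trans hn))

theorem dFam_dStarOf (hS : IsPGroup p S) : DFam S (dStarOf S) := by
  refine ⟨dStarOf_le S, ?_, fun x hx h => ?_⟩
  · haveI := hS.isNilpotent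
    obtain ⟨B, -, h1, h2, h3⟩ := PGroup.exists_scn_ge (⊥ : Subgroup S) inferInstance
    have h4 := map_le_centralizer_map S.subtype (le_centralizer_iff_isMulCommutative.2 h2)
    have h5 : dStarOf S ≤ B.map S.subtype := (le_inf (dStarOf_le S) (dStarOf_le_centralizer hS
      (map_subtype_le B) h4 (le_normalizer_map_subtype B))).trans
      ((map_subtype_centralizer B).ge.trans (map_mono h3))
    exact (h5.trans h4).trans (centralizer_anti h5)
  · rw [← zpowers_le, le_centralizer_iff, dStarOf_le_iff]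
    intro A hA
    have h1 := sup_le_sup_right hA.le_dStarOf (zpowers x)
    rw [le_centralizer_iff, zpowers_le]
    exact hA.cen x hx (eq_bot_iff.2 ((commutator_mono (commutator_mono h1 h1) h1).trans h.le))

theorem dStarOf_le_of_mem_maxElemIn (hS : IsPGroup p S) (hA : A ∈ maxElemIn 0 S) : dStarOf S ≤ A := by
  have hD := dFam_dStarOf hS
  have hn := le_normalizer.trans (normalizer_le_normalizer_dStarOf S)
  set D := dStarOf S
  by_contra h
  obtain ⟨A, ⟨hA, h⟩, hmax⟩ := Set.exists_max_image {U | U ∈ maxElemIn 0 S ∧ ¬ D ≤ U}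
    (fun U => Nat.card ↥(U ⊓ D)) (Set.toFinite _) ⟨A, hA, h⟩
  have hc := elemAb_le_centralizer hA.2.1
  by_cases h1 : D ≤ normalizer (A : Set G)
  · have h2 : A ≤ centralizer (D : Set G) := fun x hx => hD.cen x (hA.1 hx)
      (class_two_sup_zpowers (C := A ⊓ D) hD.comm (hD.comm.trans (centralizer_anti inf_le_right))
        (centralizer_anti inf_le_left (hc hx)) fun a ha =>
        ⟨commutator_le_left_of_le_normalizer h1 (commutator_mem_commutator hx ha),
          commutator_le_right_of_le_normalizer (hA.1.trans hn) (commutator_mem_commutator hx ha)⟩)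
    refine h (le_sup_right.trans (eq_of_le_of_card_ge le_sup_left (hA.2.2 _ (sup_le hA.1 hD.le)
      (elemAb_sup hA.2.1 ?_ h2))).ge)
    exact ZJ.elemAb_zero_iff.2 (le_centralizer_iff_isMulCommutative.1 hD.comm)
  · obtain ⟨b, hb, hbN, hbA⟩ := ZJ.exists_repl_element hS hD.le hn h1
    have r : ZJ.ReplSetup A (S ⊓ normalizer (A : Set G)) D b :=
      ⟨hA.2.1.1, le_inf hA.1 le_normalizer, inf_le_right, inf_le_left.trans hn, hb, hbN,
        (commutator_eq_bot_iff_le_centralizer.2 hD.comm).le.trans bot_le⟩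
    have := hmax _ ⟨mem_maxElemIn_of_card_le hA (r.repl_le_N.trans inf_le_left)
      (ZJ.elemAb_zero_iff.2 (r.repl_comm (Or.inr (le_centralizer_iff_isMulCommutative.1 hD.comm))))
      r.card_repl.ge, fun hle => r.not_mem_repl hbA (hle hb)⟩
    exact absurd (Core.card_lt_of_lt (r.inf_lt hbA)) (not_lt.2 this)

/-- The `D*`-theorem. -/
theorem dStarOf_normal (hst : ZJ.QuadStable p G)
    (hc : centralizer (pCore p G : Set G) ≤ pCore p G) (S : Sylow p G) :
    (dStarOf (S : Subgroup G)).Normal := by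
  have hD := dFam_dStarOf S.isPGroup'
  have hn := le_normalizer.trans (normalizer_le_normalizer_dStarOf (S : Subgroup G))
  set D := dStarOf (S : Subgroup G)
  have hT : pCore p G ≤ S := pCore_le_sylow S
  have hDT : D ≤ pCore p G := ZJ.le_pCore_of_comm_of_le_normalizer hst hc S
    (le_centralizer_iff_isMulCommutative.1 hD.comm) hD.le hn
  have h1 : ∀ g, conjS g D ≤ pCore p G := fun g => by
    rw [← conjS_eq_of_normal g (pCore p G)]; exact conjS_mono hDT
  have h2 : ∀ g, conjS g D ≤ centralizer (D : Set G) := fun g =>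
    hD.le_centralizer S.isPGroup' ((h1 g).trans hT) (hD.conj g).comm (hDT.trans (by
      rw [← conjS_eq_of_normal g (pCore p G), ← conjS_normalizer]; exact conjS_mono (hT.trans hn)))
  set W := nclIn D ⊤ with hW
  haveI hWn : W.Normal := normal_of_top_le (le_normalizer_nclIn _ _)
  have hWT : W ≤ pCore p G := nclIn_le hDT le_normalizer_of_normal
  have hWc : W ≤ centralizer (W : Set G) := nclIn_le_centralizer
    (le_centralizer_iff.1 (nclIn_le_iff.2 fun g _ => h2 g)) le_normalizer_of_normal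
  have hWD : DFam S W := by
    refine ⟨hWT.trans hT, hWc, fun x hx h => ?_⟩
    set L := (pCore p (G ⧸ centralizer (W : Set G))).comap (QuotientGroup.mk' _) with hL
    have hxL : zpowers x ≤ L := map_le_iff_le_comap.1 (hst W (isPGroup_pCore.to_le hWT) _
      (S.isPGroup'.to_le (zpowers_le.2 hx)) inferInstance (eq_bot_iff.2 ((commutator_mono
        (commutator_mono le_sup_left le_sup_right) le_sup_right).trans h.le)))
    rw [← zpowers_le, le_centralizer_iff, hW, nclIn_le_iff]
    intro g _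
    obtain ⟨l, hl, hgl⟩ := ZJ.exists_mul_mem_normalizer_inf S L g
    have hlD : l ∈ normalizer (D : Set G) :=
      ZJ.comap_pCore_le_normalizer S (le_nclIn _ _) hn hl
    have e : conjS g D = conjS (g * l) D := by rw [conjS_mul, mem_normalizer_iff_conjS.1 hlD]
    have hDg := hD.conj (g * l)
    have h3 := sup_le_sup_right (nclIn_le_iff.1 hW.ge (g * l) trivial) (zpowers x)
    rw [e, le_centralizer_iff, zpowers_le]
    refine hDg.cen x (conjS_mono inf_le_left ((mem_normalizer_iff_conjS.1 hgl).ge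
      ⟨hx, hxL (mem_zpowers x)⟩)) ?_
    exact eq_bot_iff.2 ((commutator_mono (commutator_mono h3 h3) h3).trans h.le)
  rwa [le_antisymm hWD.le_dStarOf (le_nclIn _ _)] at hWn

end CfsgLib.LAE
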